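import Mathlib
import Cfsg.Agent.H668.Five.Base
import Cfsg.Agent.H374.EightExcOdd

/-!
# `NN` elements from homomorphisms of `SL₂(F)` (helper588, for S4874)

* `good_odd` : `φ : SL₂(F) → G`, `|F|` odd, `φ(-1) ≠ 1`: `φ(-1)` is an involution whose centralizer has no normal
  `2`-complement;
* `good_even` : `φ : SL₂(F) → G`, `|F| ≥ 4` even, `t ↦ φ(up t)` injective, `z` commuting with the image.
-/

set_option autoImplicit false

open Cfsg

namespace Cfsg.Agent.H588.Five

open Cfsg.Agent.H668.Five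
open Cfsg.Agent.ChevalleyStructure.SL2Hom (up lo mem_closure_SL2)
open Cfsg.Agent.H374.EightExcOdd (dg coe_dg)

section

variable {F : Type*} [Field F]

theorem up_mul (s t : F) : up s * up t = up (s + t) := by
  apply Subtype.ext
  show (!![1, s; 0, 1] * !![1, t; 0, 1] : Matrix (Fin 2) (Fin 2) F) = !![1, s + t; 0, 1]
  ext i j
  fin_cases i <;> fin_cases j <;> simp [add_comm]

theorem lo_mul (s t : F) : lo s * lo t = lo (s + t) := by
  apply Subtype.ext
  show (!![1, 0; s, 1] * !![1, 0; t, 1] : Matrix (Fin 2) (Fin 2) F) = !![1, 0; s + t, 1]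
  ext i j
  fin_cases i <;> fin_cases j <;> simp

theorem up_zero : up (0 : F) = 1 := by
  apply Subtype.ext
  show (!![1, 0; 0, 1] : Matrix (Fin 2) (Fin 2) F) = 1
  rw [Matrix.one_fin_two]

theorem lo_zero : lo (0 : F) = 1 := by
  apply Subtype.ext
  show (!![1, 0; 0, 1] : Matrix (Fin 2) (Fin 2) F) = 1
  rw [Matrix.one_fin_two]

theorem up_pow (t : F) (n : ℕ) : up t ^ n = up ((n : F) * t) := by
  induction n with
  | zero => rw [pow_zero, Nat.cast_zero, zero_mul, up_zero]
  | succ n ih => rw [pow_succ, ih, up_mul]; push_cast; ring_nf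

theorem lo_pow (t : F) (n : ℕ) : lo t ^ n = lo ((n : F) * t) := by
  induction n with
  | zero => rw [pow_zero, Nat.cast_zero, zero_mul, lo_zero]
  | succ n ih => rw [pow_succ, ih, lo_mul]; push_cast; ring_nf

theorem dg_mul {c d : F} (hc : c ≠ 0) (hd : d ≠ 0) : dg c * dg d = dg (c * d) := by
  apply Subtype.ext
  show (dg c).1 * (dg d).1 = (dg (c * d)).1
  rw [coe_dg hc, coe_dg hd, coe_dg (mul_ne_zero hc hd)]
  ext i j
  fin_cases i <;> fin_cases j <;> simp [mul_comm]

theorem dg_one : dg (1 : F) = 1 := by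
  apply Subtype.ext
  rw [coe_dg one_ne_zero, Matrix.SpecialLinearGroup.coe_one, Matrix.one_fin_two, inv_one]

theorem dg_pow {c : F} (hc : c ≠ 0) (n : ℕ) : dg c ^ n = dg (c ^ n) := by
  induction n with
  | zero => rw [pow_zero, pow_zero, dg_one]
  | succ n ih => rw [pow_succ, ih, dg_mul (pow_ne_zero n hc) hc, pow_succ]

theorem dg_up {c : F} (hc : c ≠ 0) (t : F) : dg c * up t = up (c ^ 2 * t) * dg c := by
  apply Subtype.ext
  show (dg c).1 * !![1, t; 0, 1] = !![1, c ^ 2 * t; 0, 1] * (dg c).1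
  rw [coe_dg hc]
  ext i j
  fin_cases i <;> fin_cases j <;> simp
  field_simp

end

variable {F : Type*} [Field F] [Finite F] {G : Type*} [Group G] [Finite G]

/-- odd `|F|`: no normal `2`-complement -/
theorem not_compl_range_odd (h2 : (2 : F) ≠ 0) (φ : Matrix.SpecialLinearGroup (Fin 2) F →* G) (h : φ (-1) ≠ 1) :
    ¬ HasNormalPComplement 2 ↥φ.range := by
  intro hX
  obtain ⟨N, hN, hpN, k, hk⟩ := OddOrderLocal.NilpotentQuotient.exists_of_hasNormalPComplement hX
  obtain ⟨p, hpc⟩ := CharP.exists F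
  have hpp : p.Prime := (CharP.char_is_prime_or_zero F p).resolve_right (CharP.char_ne_zero_of_finite F p)
  have hp2 : Nat.Coprime (2 ^ k) p := by
    apply Nat.Coprime.pow_left
    rw [Nat.coprime_primes Nat.prime_two hpp]
    rintro rfl
    exact h2 (by exact_mod_cast CharP.cast_eq_zero F 2)
  have key : ∀ g : ↥φ.range, g ^ p = 1 → g ∈ N := by
    intro g hg
    have h1 : g ^ (2 ^ k) ∈ N := by
      rw [← hk]
      exact Subgroup.pow_index_mem N g
    have h3 : g ∈ Subgroup.zpowers (g ^ (2 ^ k)) := by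
      obtain ⟨m, hm⟩ := exists_pow_eq_self_of_coprime
        (Nat.Coprime.coprime_dvd_right (orderOf_dvd_of_pow_eq_one hg) hp2)
      exact Subgroup.mem_zpowers_iff.2 ⟨(m : ℤ), by rw [zpow_natCast]; exact hm⟩
    exact (Subgroup.zpowers_le.2 h1) h3
  have h3 : ∀ g, φ.rangeRestrict g ∈ N := by
    intro g
    have h4 : g ∈ N.comap φ.rangeRestrict := by
      refine (Subgroup.closure_le _).2 ?_ (mem_closure_SL2 g)
      rintro x (⟨t, rfl⟩ | ⟨t, rfl⟩)
      · apply key
        rw [← map_pow, up_pow, CharP.cast_eq_zero, zero_mul, up_zero, map_one]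
      · apply key
        rw [← map_pow, lo_pow, CharP.cast_eq_zero, zero_mul, lo_zero, map_one]
    exact h4
  apply hpN
  have h5 : orderOf (⟨φ.rangeRestrict (-1), h3 _⟩ : ↥N) = 2 := by
    apply orderOf_eq_prime
    · apply Subtype.ext
      show (φ.rangeRestrict (-1)) ^ 2 = 1
      rw [← map_pow, neg_one_sq, map_one]
    · intro h6
      apply h
      have h7 : φ.rangeRestrict (-1) = 1 := congrArg Subtype.val h6
      exact congrArg Subtype.val h7
  exact (dvd_of_eq h5.symm).trans (orderOf_dvd_natCard _)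

/-- odd `|F|`: the involution `φ(-1)` -/
theorem good_odd (h2 : (2 : F) ≠ 0) (φ : Matrix.SpecialLinearGroup (Fin 2) F →* G) (h : φ (-1) ≠ 1) :
    orderOf (φ (-1)) = 2 ∧ NN (φ (-1)) := by
  refine ⟨orderOf_eq_prime (by rw [← map_pow, neg_one_sq, map_one]) h,
    NN.of_le (not_compl_range_odd h2 φ h) ?_⟩
  rintro _ ⟨g, rfl⟩
  rw [← map_mul, ← map_mul, neg_one_mul, mul_neg_one]

/-- even `|F| ≥ 4`: no normal `2`-complement -/
theorem not_compl_range_even (h2 : (2 : F) = 0) (hF : 4 ≤ Nat.card F) (φ : Matrix.SpecialLinearGroup (Fin 2) F →* G)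
    (hup : Function.Injective fun t => φ (up t)) : ¬ HasNormalPComplement 2 ↥φ.range := by
  classical
  have : Fintype F := Fintype.ofFinite F
  have hc : CharP F 2 := CharTwo.of_one_ne_zero_of_two_eq_zero one_ne_zero h2
  obtain ⟨c, hc0, hc1⟩ : ∃ c : F, c ≠ 0 ∧ c ≠ 1 := by
    by_contra hcon
    push Not at hcon
    have h3 : (Finset.univ : Finset F) ⊆ {0, 1} := by
      intro x _
      simp only [Finset.mem_insert, Finset.mem_singleton]
      by_cases hx : x = 0
      · exact Or.inl hx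
      · exact Or.inr (hcon x hx)
    have h4 := (Finset.card_le_card h3).trans Finset.card_le_two
    rw [Finset.card_univ, ← Nat.card_eq_fintype_card] at h4
    omega
  have hodd : Odd (Fintype.card F - 1) := by
    have h3 : Even (Fintype.card F) := by
      have := FiniteField.even_card_of_char_two (F := F) (CharP.ringChar_of_prime_eq_zero Nat.prime_two
        (by exact_mod_cast h2))
      exact Nat.even_iff.2 this
    have h4 : 1 < Fintype.card F := Fintype.one_lt_card
    obtain ⟨m, hm⟩ := h3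
    exact ⟨m - 1, by omega⟩
  let U : Subgroup ↥φ.range :=
    { carrier := Set.range fun t : F => φ.rangeRestrict (up t)
      one_mem' := ⟨0, by simp only [up_zero, map_one]⟩
      mul_mem' := by
        rintro _ _ ⟨s, rfl⟩ ⟨t, rfl⟩
        exact ⟨s + t, by simp only [← up_mul, map_mul]⟩
      inv_mem' := by
        rintro _ ⟨s, rfl⟩
        refine ⟨-s, ?_⟩
        apply eq_inv_of_mul_eq_one_left
        simp only [← map_mul, up_mul, neg_add_cancel, up_zero, map_one] }
  refine not_compl_of_act U ?_ (φ.rangeRestrict (dg c)) ?_ ?_ (a := φ.rangeRestrict (up 1)) ⟨1, rfl⟩ ?_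
  · rintro ⟨_, ⟨s, rfl⟩⟩
    refine ⟨1, ?_⟩
    apply Subtype.ext
    show (φ.rangeRestrict (up s)) ^ (2 ^ 1) = 1
    rw [← map_pow, up_pow]
    norm_num
    rw [h2, zero_mul, up_zero, map_one]
  · apply Odd.of_dvd_nat hodd
    apply orderOf_dvd_of_pow_eq_one
    rw [← map_pow, dg_pow hc0, FiniteField.pow_card_sub_one_eq_one c hc0, dg_one, map_one]
  · rintro _ ⟨s, rfl⟩
    refine ⟨c ^ 2 * s, ?_⟩
    show φ.rangeRestrict (up (c ^ 2 * s)) = φ.rangeRestrict (dg c) * φ.rangeRestrict (up s) *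
      (φ.rangeRestrict (dg c))⁻¹
    rw [eq_mul_inv_iff_mul_eq, ← map_mul, ← map_mul, dg_up hc0]
  · intro h3
    rw [← map_mul, ← map_mul, dg_up hc0, mul_one, map_mul, map_mul] at h3
    have h4 := hup (congrArg Subtype.val (mul_right_cancel h3))
    have h5 : (c + 1) ^ 2 = 0 := by linear_combination h4 + (c + 1) * h2
    have h6 : c + 1 = 0 := pow_eq_zero_iff (two_ne_zero) |>.1 h5
    apply hc1
    linear_combination h6 - h2

/-- even `|F| ≥ 4`: an element commuting with the image -/
theorem good_even (h2 : (2 : F) = 0) (hF : 4 ≤ Nat.card F) (φ : Matrix.SpecialLinearGroup (Fin 2) F →* G)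
    (hup : Function.Injective fun t => φ (up t)) {z : G} (hz1 : ∀ t, z * φ (up t) = φ (up t) * z)
    (hz2 : ∀ t, z * φ (lo t) = φ (lo t) * z) : NN z := by
  refine NN.of_le (not_compl_range_even h2 hF φ hup) ?_
  rintro _ ⟨g, rfl⟩
  have h1 : g ∈ (Subgroup.centralizer ({z} : Set G)).comap φ := by
    refine (Subgroup.closure_le _).2 ?_ (mem_closure_SL2 g)
    rintro x (⟨t, rfl⟩ | ⟨t, rfl⟩)
    · exact Subgroup.mem_centralizer_singleton_iff.2 (hz1 t).symm
    · exact Subgroup.mem_centralizer_singleton_iff.2 (hz2 t).symm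
  exact Subgroup.mem_centralizer_singleton_iff.1 h1

end Cfsg.Agent.H588.Five
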