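import Mathlib
import Cfsg.Agent.H588.Five.Abs
import Cfsg.Agent.H668.Five.Rows
import Cfsg.Agent.H374.EightExc
import Cfsg.Agent.H423.PGD4
import Cfsg.Prelude.Def_Classification2

/-!
# The rows `G₂(q)`, `³D₄(q)` for S4874 (helper588)
-/

set_option autoImplicit false

open Cfsg

namespace Cfsg.Agent.H588.Five

open Cfsg.Agent.H668.Five
open Cfsg.Lie Cfsg.Lie.ChevalleyDatum
open Cfsg.Agent.ChevalleyStructure Cfsg.Agent.ChevalleyStructure.Elts Cfsg.Agent.ChevalleyStructure.SL2Hom
open Cfsg.Agent.ChevalleyStructure.NPerm Cfsg.Agent.Nodes.RGDChev Cfsg.Agent.OddHalf.LongSL.Chev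
open Cfsg.Agent.H374.EightExcOddChev (hG_neg_ne)

/-- the check for the node `i` and the roots `s` (orthogonal), `u` (odd Cartan integer) -/
def chkNode (D : ChevalleyDatum) (i s u : ℕ) : Bool :=
  decide (s < D.nroots) && s != D.simple i && s != D.neg (D.simple i) && (D.commTerms (D.simple i) s).isEmpty &&
    (D.commTerms (D.neg (D.simple i)) s).isEmpty && decide (u < D.nroots) && D.cartan i u % 2 == 1

section

variable {D : ChevalleyDatum} {l : ℕ} {M : CoxeterMatrix (Fin l)} (hp : IsType D l M) (K : Type) [Field K]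
  [Fintype K]

include hp in
/-- an involution `z` with `NN z` in a Chevalley group over `K`, `|K| ≥ 3` -/
theorem exists_nn (h3 : 3 ≤ Fintype.card K) (i : Fin l) {s u : ℕ} (h : chkNode D i s u = true) :
    ∃ z : ↥(D.group K), orderOf z = 2 ∧ NN z := by
  classical
  simp only [chkNode, Bool.and_eq_true, decide_eq_true_eq, bne_iff_ne, ne_eq, List.isEmpty_iff, beq_iff_eq] at h
  obtain ⟨⟨⟨⟨⟨⟨hs, hs1⟩, hs2⟩, hc1⟩, hc2⟩, hu⟩, hcu⟩ := h
  have hi := simple_lt hp.inList (lt_rank hp i)
  have hni := neg_lt hp.inList hi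
  by_cases h2 : (2 : K) = 0
  · have hc : CharP K 2 := CharTwo.of_one_ne_zero_of_two_eq_zero one_ne_zero h2
    have h4 : 4 ≤ Nat.card K := by
      rw [Nat.card_eq_fintype_card]
      have := FiniteField.even_card_of_char_two (F := K) (CharP.ringChar_of_prime_eq_zero Nat.prime_two
        (by exact_mod_cast h2))
      omega
    have hmem : xG hp.inList s (1 : K) ∈ D.group K := xG_mem_group hp.inList s 1
    refine ⟨⟨_, hmem⟩, ?_, ?_⟩
    · apply orderOf_eq_prime
      · apply Subtype.ext
        show xG hp.inList s (1 : K) ^ 2 = 1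
        rw [pow_two, xG_add, show (1 : K) + 1 = 0 by linear_combination h2, xG_zero]
      · intro h5
        have h6 : xG hp.inList s (1 : K) = xG hp.inList s 0 := by
          rw [xG_zero]; exact congrArg Subtype.val h5
        exact one_ne_zero (xG_injective hp.inList hs h6)
    · refine good_even h2 h4 (phi hp K i) ?_ ?_ ?_
      · intro a b hab
        have h5 : (phi hp K i (up a) : GL D.Idx K) = phi hp K i (up b) := congrArg Subtype.val hab
        rw [phi_up, phi_up] at h5
        exact xG_injective hp.inList hi h5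
      · intro t
        apply Subtype.ext
        rw [Subgroup.coe_mul, Subgroup.coe_mul, phi_up]
        exact commute_xG hp K hi hs hs1 hs2 hc1 t 1
      · intro t
        apply Subtype.ext
        rw [Subgroup.coe_mul, Subgroup.coe_mul, phi_lo]
        exact commute_xG hp K hni hs hs2 (by rw [RootVec.neg_neg hp.checked hi]; exact hs1) hc2 t 1
  · refine ⟨phi hp K i (-1), good_odd h2 (phi hp K i) ?_⟩
    intro h
    refine hG_neg_ne hp K h2 i hu (Int.odd_iff.2 hcu) ?_
    rw [← phi_neg_one hp K i, h]; rfl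

end

theorem good_of_eight {S : Type*} [Group S] (h : ∃ z : S, orderOf z = 2 ∧ NN z) (h8 : ∃ w : S, orderOf w = 8) :
    Good S := by
  obtain ⟨z, hz, hN⟩ := h
  obtain ⟨w, hw⟩ := h8
  exact Or.inr ⟨z, w, hz, hN, hw⟩

theorem row_g2 {S : Type*} [Group S] [Finite S] (h : Lie.IsoChevG2 S) : Good S := by
  have h8 := Cfsg.Agent.H374.EightExc.G2 h
  obtain ⟨F, hF, hFt, h3, ⟨e⟩⟩ := h
  obtain ⟨z, hz, hN⟩ := exists_nn (D := chevG2) (l := 2) (M := CoxeterMatrix.G₂) (by simp [IsType, typeList]) F h3 1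
    (s := 2) (u := chevG2.simple 0) (by decide +kernel)
  have : Finite ↥(chevG2.group F) := Finite.of_equiv S e.toEquiv
  exact good_of_eight ⟨e.symm z, by rw [MulEquiv.orderOf_eq, hz], hN.of_mulEquiv e.symm⟩ h8

open Cfsg.Agent.OddTab.D4Short in
theorem row_3d4 {S : Type*} [Group S] [Finite S] (h : Lie.Iso3D4 S) : Good S := by
  have h8 := Cfsg.Agent.H374.EightExc.twD4 h
  obtain ⟨K, hK, hKt, q, hq, hc, ⟨e⟩⟩ := h
  have : Finite ↥(twistedD4 K q) := Finite.of_equiv S e.toEquiv
  obtain ⟨φ, hφ⟩ := D4Fixed.exists_frob hq hc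
  have hK8 : 8 ≤ Fintype.card K := by
    rw [hc]
    exact Nat.pow_le_pow_left hq.two_le 3
  let ψ : Matrix.SpecialLinearGroup (Fin 2) K →* ↥(twistedD4 K q) :=
    (psi φ).codRestrict (twistedD4 K q) (psi_mem φ hφ)
  have hψ : ∀ g, (ψ g : GL chevD4.Idx K) = psi φ g := fun g => rfl
  have hψinj : Function.Injective ψ := fun a b hab =>
    Cfsg.Agent.H423.PGD4.psi_inj (by omega) φ (congrArg Subtype.val hab)
  obtain ⟨z, hz, hN⟩ : ∃ z : ↥(twistedD4 K q), orderOf z = 2 ∧ NN z := by
    by_cases h2 : (2 : K) = 0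
    · have hx : Elts.xG (F := K) Cfsg.Agent.Nodes.RGDTwD4.hp.inList 23 1 ∈ twistedD4 K q := by
        rw [Cfsg.Agent.Nodes.RGDTwD4.xG_eq]
        exact D4Perfect.C_le (D4Perfect.x23_mem_C hφ (map_one φ))
      refine ⟨⟨_, hx⟩, ?_, ?_⟩
      · apply orderOf_eq_prime
        · apply Subtype.ext
          show Elts.xG (F := K) Cfsg.Agent.Nodes.RGDTwD4.hp.inList 23 1 ^ 2 = 1
          rw [pow_two, xG_add, show (1 : K) + 1 = 0 by linear_combination h2, xG_zero]
        · intro h5
          have h6 : Elts.xG (F := K) Cfsg.Agent.Nodes.RGDTwD4.hp.inList 23 1 =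
              Elts.xG Cfsg.Agent.Nodes.RGDTwD4.hp.inList 23 0 := by
            rw [xG_zero]; exact congrArg Subtype.val h5
          exact one_ne_zero (xG_injective _ (by decide +kernel) h6)
      · refine good_even h2 (by rw [Nat.card_eq_fintype_card]; omega) ψ ?_ ?_ ?_
        · intro a b hab
          have h5 : up a = up b := hψinj hab
          have h6 := congrFun (congrFun (congrArg Subtype.val h5) 0) 1
          simpa [up] using h6
        · intro t
          apply Subtype.ext
          exact Cfsg.Agent.H423.PGD4.comm_psi φ 1 (up t)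
        · intro t
          apply Subtype.ext
          exact Cfsg.Agent.H423.PGD4.comm_psi φ 1 (lo t)
    · refine ⟨ψ (-1), good_odd h2 ψ ?_⟩
      intro h
      have h5 : (-1 : Matrix.SpecialLinearGroup (Fin 2) K) = 1 := hψinj (by rw [h, map_one])
      exact Cfsg.Agent.H374.EightExcOdd.neg_one_ne h2 h5
  exact good_of_eight ⟨e.symm z, by rw [MulEquiv.orderOf_eq, hz], hN.of_mulEquiv e.symm⟩ h8

end Cfsg.Agent.H588.Five
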